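import Mathlib
import Cfsg.Agent.Lib.Helper56.TC
import Cfsg.Agent.Lib.Helper56.Fi23U8.D
set_option autoImplicit false
set_option maxRecDepth 1000000

namespace Cfsg.Agent.Lib.Helper56.Fi23U8

open Cfsg.Agent.Lib.Helper56.TC Cfsg.Agent.Lib.Helper56.TC.Tabs

theorem cN_0 : allRange (fun x => forceN T.chkName x) 0 512 = true := by decide +kernel
theorem cN_512 : allRange (fun x => forceN T.chkName x) 512 516 = true := by decide +kernel
theorem cN_1028 : allRange (fun x => forceN T.chkName x) 1028 518 = true := by decide +kernel
theorem cN_1546 : allRange (fun x => forceN T.chkName x) 1546 519 = true := by decide +kernel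
theorem cN_2065 : allRange (fun x => forceN T.chkName x) 2065 520 = true := by decide +kernel
theorem cN_2585 : allRange (fun x => forceN T.chkName x) 2585 519 = true := by decide +kernel
theorem cN_3104 : allRange (fun x => forceN T.chkName x) 3104 520 = true := by decide +kernel
theorem cN_3624 : allRange (fun x => forceN T.chkName x) 3624 523 = true := by decide +kernel
theorem cN_4147 : allRange (fun x => forceN T.chkName x) 4147 522 = true := by decide +kernel
theorem cN_4669 : allRange (fun x => forceN T.chkName x) 4669 521 = true := by decide +kernel
theorem cN_5190 : allRange (fun x => forceN T.chkName x) 5190 524 = true := by decide +kernel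
theorem cN_5714 : allRange (fun x => forceN T.chkName x) 5714 524 = true := by decide +kernel

end Cfsg.Agent.Lib.Helper56.Fi23U8
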