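import Mathlib
import Cfsg.Agent.Lib.Helper56.TC
import Cfsg.Agent.Lib.Helper56.Fi23U8.D
set_option autoImplicit false
set_option maxRecDepth 1000000

namespace Cfsg.Agent.Lib.Helper56.Fi23U8

open Cfsg.Agent.Lib.Helper56.TC Cfsg.Agent.Lib.Helper56.TC.Tabs

theorem cN_6238 : allRange (fun x => forceN T.chkName x) 6238 518 = true := by decide +kernel
theorem cN_6756 : allRange (fun x => forceN T.chkName x) 6756 526 = true := by decide +kernel
theorem cN_7282 : allRange (fun x => forceN T.chkName x) 7282 523 = true := by decide +kernel
theorem cN_7805 : allRange (fun x => forceN T.chkName x) 7805 520 = true := by decide +kernel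
theorem cN_8325 : allRange (fun x => forceN T.chkName x) 8325 527 = true := by decide +kernel
theorem cN_8852 : allRange (fun x => forceN T.chkName x) 8852 519 = true := by decide +kernel
theorem cN_9371 : allRange (fun x => forceN T.chkName x) 9371 511 = true := by decide +kernel
theorem cN_9882 : allRange (fun x => forceN T.chkName x) 9882 534 = true := by decide +kernel
theorem cN_10416 : allRange (fun x => forceN T.chkName x) 10416 524 = true := by decide +kernel
theorem cN_10940 : allRange (fun x => forceN T.chkName x) 10940 511 = true := by decide +kernel
theorem cN_11451 : allRange (fun x => forceN T.chkName x) 11451 515 = true := by decide +kernel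
theorem cN_11966 : allRange (fun x => forceN T.chkName x) 11966 534 = true := by decide +kernel

end Cfsg.Agent.Lib.Helper56.Fi23U8
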