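import Mathlib
import Cfsg.Agent.Lib.Helper56.TC
import Cfsg.Agent.Lib.Helper56.Fi23U8.D
set_option autoImplicit false
set_option maxRecDepth 1000000

namespace Cfsg.Agent.Lib.Helper56.Fi23U8

open Cfsg.Agent.Lib.Helper56.TC Cfsg.Agent.Lib.Helper56.TC.Tabs

theorem cV_24070 : allRange (fun x => forceN T.chkV x) 24070 415 = true := by decide +kernel
theorem cV_24485 : allRange (fun x => forceN T.chkV x) 24485 415 = true := by decide +kernel
theorem cV_24900 : allRange (fun x => forceN T.chkV x) 24900 415 = true := by decide +kernel
theorem cV_25315 : allRange (fun x => forceN T.chkV x) 25315 415 = true := by decide +kernel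
theorem cV_25730 : allRange (fun x => forceN T.chkV x) 25730 415 = true := by decide +kernel
theorem cV_26145 : allRange (fun x => forceN T.chkV x) 26145 415 = true := by decide +kernel
theorem cV_26560 : allRange (fun x => forceN T.chkV x) 26560 415 = true := by decide +kernel
theorem cV_26975 : allRange (fun x => forceN T.chkV x) 26975 415 = true := by decide +kernel
theorem cV_27390 : allRange (fun x => forceN T.chkV x) 27390 415 = true := by decide +kernel
theorem cV_27805 : allRange (fun x => forceN T.chkV x) 27805 355 = true := by decide +kernel

end Cfsg.Agent.Lib.Helper56.Fi23U8
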