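import Mathlib
import Cfsg.Agent.Lib.Helper56.TC
import Cfsg.Agent.Lib.Helper56.Fi23U8.D
set_option autoImplicit false
set_option maxRecDepth 1000000

namespace Cfsg.Agent.Lib.Helper56.Fi23U8

open Cfsg.Agent.Lib.Helper56.TC Cfsg.Agent.Lib.Helper56.TC.Tabs

theorem cN_12500 : allRange (fun x => forceN T.chkName x) 12500 526 = true := by decide +kernel
theorem cN_13026 : allRange (fun x => forceN T.chkName x) 13026 511 = true := by decide +kernel
theorem cN_13537 : allRange (fun x => forceN T.chkName x) 13537 514 = true := by decide +kernel
theorem cN_14051 : allRange (fun x => forceN T.chkName x) 14051 540 = true := by decide +kernel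
theorem cN_14591 : allRange (fun x => forceN T.chkName x) 14591 524 = true := by decide +kernel
theorem cN_15115 : allRange (fun x => forceN T.chkName x) 15115 509 = true := by decide +kernel
theorem cN_15624 : allRange (fun x => forceN T.chkName x) 15624 527 = true := by decide +kernel
theorem cN_16151 : allRange (fun x => forceN T.chkName x) 16151 532 = true := by decide +kernel
theorem cN_16683 : allRange (fun x => forceN T.chkName x) 16683 519 = true := by decide +kernel
theorem cN_17202 : allRange (fun x => forceN T.chkName x) 17202 514 = true := by decide +kernel
theorem cN_17716 : allRange (fun x => forceN T.chkName x) 17716 544 = true := by decide +kernel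
theorem cN_18260 : allRange (fun x => forceN T.chkName x) 18260 519 = true := by decide +kernel

end Cfsg.Agent.Lib.Helper56.Fi23U8
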