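import Mathlib
import Cfsg.Agent.Lib.Helper56.TC
import Cfsg.Agent.Lib.Helper56.Fi23U8.D
set_option autoImplicit false
set_option maxRecDepth 1000000

namespace Cfsg.Agent.Lib.Helper56.Fi23U8

open Cfsg.Agent.Lib.Helper56.TC Cfsg.Agent.Lib.Helper56.TC.Tabs

theorem cN_18779 : allRange (fun x => forceN T.chkName x) 18779 518 = true := by decide +kernel
theorem cN_19297 : allRange (fun x => forceN T.chkName x) 19297 541 = true := by decide +kernel
theorem cN_19838 : allRange (fun x => forceN T.chkName x) 19838 520 = true := by decide +kernel
theorem cN_20358 : allRange (fun x => forceN T.chkName x) 20358 537 = true := by decide +kernel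
theorem cN_20895 : allRange (fun x => forceN T.chkName x) 20895 522 = true := by decide +kernel
theorem cN_21417 : allRange (fun x => forceN T.chkName x) 21417 530 = true := by decide +kernel
theorem cN_21947 : allRange (fun x => forceN T.chkName x) 21947 534 = true := by decide +kernel
theorem cN_22481 : allRange (fun x => forceN T.chkName x) 22481 521 = true := by decide +kernel
theorem cN_23002 : allRange (fun x => forceN T.chkName x) 23002 539 = true := by decide +kernel
theorem cN_23541 : allRange (fun x => forceN T.chkName x) 23541 511 = true := by decide +kernel
theorem cN_24052 : allRange (fun x => forceN T.chkName x) 24052 547 = true := by decide +kernel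
theorem cN_24599 : allRange (fun x => forceN T.chkName x) 24599 513 = true := by decide +kernel

end Cfsg.Agent.Lib.Helper56.Fi23U8
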