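import Mathlib
import Cfsg.Agent.Lib.Helper56.TC
import Cfsg.Agent.Lib.Helper56.Fi23U8.D
set_option autoImplicit false
set_option maxRecDepth 1000000

namespace Cfsg.Agent.Lib.Helper56.Fi23U8

open Cfsg.Agent.Lib.Helper56.TC Cfsg.Agent.Lib.Helper56.TC.Tabs

theorem cN_25112 : allRange (fun x => forceN T.chkName x) 25112 542 = true := by decide +kernel
theorem cN_25654 : allRange (fun x => forceN T.chkName x) 25654 512 = true := by decide +kernel
theorem cN_26166 : allRange (fun x => forceN T.chkName x) 26166 542 = true := by decide +kernel
theorem cN_26708 : allRange (fun x => forceN T.chkName x) 26708 529 = true := by decide +kernel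
theorem cN_27237 : allRange (fun x => forceN T.chkName x) 27237 523 = true := by decide +kernel
theorem cN_27760 : allRange (fun x => forceN T.chkName x) 27760 565 = true := by decide +kernel
theorem cN_28325 : allRange (fun x => forceN T.chkName x) 28325 651 = true := by decide +kernel
theorem cN_28976 : allRange (fun x => forceN T.chkName x) 28976 654 = true := by decide +kernel
theorem cN_29630 : allRange (fun x => forceN T.chkName x) 29630 660 = true := by decide +kernel
theorem cN_30290 : allRange (fun x => forceN T.chkName x) 30290 666 = true := by decide +kernel
theorem cN_30956 : allRange (fun x => forceN T.chkName x) 30956 664 = true := by decide +kernel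
theorem cN_31620 : allRange (fun x => forceN T.chkName x) 31620 680 = true := by decide +kernel

end Cfsg.Agent.Lib.Helper56.Fi23U8
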