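import Mathlib
import Cfsg.Agent.Lib.Helper56.TC
import Cfsg.Agent.Lib.Helper56.Fi23U8.D
set_option autoImplicit false
set_option maxRecDepth 1000000

namespace Cfsg.Agent.Lib.Helper56.Fi23U8

open Cfsg.Agent.Lib.Helper56.TC Cfsg.Agent.Lib.Helper56.TC.Tabs

theorem cN_32300 : allRange (fun x => forceN T.chkName x) 32300 704 = true := by decide +kernel
theorem cN_33004 : allRange (fun x => forceN T.chkName x) 33004 63 = true := by decide +kernel
theorem cV_0 : allRange (fun x => forceN T.chkV x) 0 415 = true := by decide +kernel
theorem cV_415 : allRange (fun x => forceN T.chkV x) 415 415 = true := by decide +kernel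
theorem cV_830 : allRange (fun x => forceN T.chkV x) 830 415 = true := by decide +kernel
theorem cV_1245 : allRange (fun x => forceN T.chkV x) 1245 415 = true := by decide +kernel
theorem cV_1660 : allRange (fun x => forceN T.chkV x) 1660 415 = true := by decide +kernel
theorem cV_2075 : allRange (fun x => forceN T.chkV x) 2075 415 = true := by decide +kernel
theorem cV_2490 : allRange (fun x => forceN T.chkV x) 2490 415 = true := by decide +kernel
theorem cV_2905 : allRange (fun x => forceN T.chkV x) 2905 415 = true := by decide +kernel
theorem cV_3320 : allRange (fun x => forceN T.chkV x) 3320 415 = true := by decide +kernel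
theorem cV_3735 : allRange (fun x => forceN T.chkV x) 3735 415 = true := by decide +kernel

end Cfsg.Agent.Lib.Helper56.Fi23U8
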