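import Mathlib
import Cfsg.Agent.Lib.Helper56.TC
import Cfsg.Agent.Lib.Helper56.Fi23U8.D
set_option autoImplicit false
set_option maxRecDepth 1000000

namespace Cfsg.Agent.Lib.Helper56.Fi23U8

open Cfsg.Agent.Lib.Helper56.TC Cfsg.Agent.Lib.Helper56.TC.Tabs

theorem cV_4150 : allRange (fun x => forceN T.chkV x) 4150 415 = true := by decide +kernel
theorem cV_4565 : allRange (fun x => forceN T.chkV x) 4565 415 = true := by decide +kernel
theorem cV_4980 : allRange (fun x => forceN T.chkV x) 4980 415 = true := by decide +kernel
theorem cV_5395 : allRange (fun x => forceN T.chkV x) 5395 415 = true := by decide +kernel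
theorem cV_5810 : allRange (fun x => forceN T.chkV x) 5810 415 = true := by decide +kernel
theorem cV_6225 : allRange (fun x => forceN T.chkV x) 6225 415 = true := by decide +kernel
theorem cV_6640 : allRange (fun x => forceN T.chkV x) 6640 415 = true := by decide +kernel
theorem cV_7055 : allRange (fun x => forceN T.chkV x) 7055 415 = true := by decide +kernel
theorem cV_7470 : allRange (fun x => forceN T.chkV x) 7470 415 = true := by decide +kernel
theorem cV_7885 : allRange (fun x => forceN T.chkV x) 7885 415 = true := by decide +kernel
theorem cV_8300 : allRange (fun x => forceN T.chkV x) 8300 415 = true := by decide +kernel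
theorem cV_8715 : allRange (fun x => forceN T.chkV x) 8715 415 = true := by decide +kernel

end Cfsg.Agent.Lib.Helper56.Fi23U8
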