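import Mathlib
import Cfsg.Agent.Lib.Helper56.TC
import Cfsg.Agent.Lib.Helper56.Fi23U8.D
set_option autoImplicit false
set_option maxRecDepth 1000000

namespace Cfsg.Agent.Lib.Helper56.Fi23U8

open Cfsg.Agent.Lib.Helper56.TC Cfsg.Agent.Lib.Helper56.TC.Tabs

theorem cV_9130 : allRange (fun x => forceN T.chkV x) 9130 415 = true := by decide +kernel
theorem cV_9545 : allRange (fun x => forceN T.chkV x) 9545 415 = true := by decide +kernel
theorem cV_9960 : allRange (fun x => forceN T.chkV x) 9960 415 = true := by decide +kernel
theorem cV_10375 : allRange (fun x => forceN T.chkV x) 10375 415 = true := by decide +kernel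
theorem cV_10790 : allRange (fun x => forceN T.chkV x) 10790 415 = true := by decide +kernel
theorem cV_11205 : allRange (fun x => forceN T.chkV x) 11205 415 = true := by decide +kernel
theorem cV_11620 : allRange (fun x => forceN T.chkV x) 11620 415 = true := by decide +kernel
theorem cV_12035 : allRange (fun x => forceN T.chkV x) 12035 415 = true := by decide +kernel
theorem cV_12450 : allRange (fun x => forceN T.chkV x) 12450 415 = true := by decide +kernel
theorem cV_12865 : allRange (fun x => forceN T.chkV x) 12865 415 = true := by decide +kernel
theorem cV_13280 : allRange (fun x => forceN T.chkV x) 13280 415 = true := by decide +kernel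
theorem cV_13695 : allRange (fun x => forceN T.chkV x) 13695 415 = true := by decide +kernel

end Cfsg.Agent.Lib.Helper56.Fi23U8
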