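import Mathlib
import Cfsg.Agent.Lib.Helper56.TC
import Cfsg.Agent.Lib.Helper56.Fi23U8.D
set_option autoImplicit false
set_option maxRecDepth 1000000

namespace Cfsg.Agent.Lib.Helper56.Fi23U8

open Cfsg.Agent.Lib.Helper56.TC Cfsg.Agent.Lib.Helper56.TC.Tabs

theorem cV_14110 : allRange (fun x => forceN T.chkV x) 14110 415 = true := by decide +kernel
theorem cV_14525 : allRange (fun x => forceN T.chkV x) 14525 415 = true := by decide +kernel
theorem cV_14940 : allRange (fun x => forceN T.chkV x) 14940 415 = true := by decide +kernel
theorem cV_15355 : allRange (fun x => forceN T.chkV x) 15355 415 = true := by decide +kernel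
theorem cV_15770 : allRange (fun x => forceN T.chkV x) 15770 415 = true := by decide +kernel
theorem cV_16185 : allRange (fun x => forceN T.chkV x) 16185 415 = true := by decide +kernel
theorem cV_16600 : allRange (fun x => forceN T.chkV x) 16600 415 = true := by decide +kernel
theorem cV_17015 : allRange (fun x => forceN T.chkV x) 17015 415 = true := by decide +kernel
theorem cV_17430 : allRange (fun x => forceN T.chkV x) 17430 415 = true := by decide +kernel
theorem cV_17845 : allRange (fun x => forceN T.chkV x) 17845 415 = true := by decide +kernel
theorem cV_18260 : allRange (fun x => forceN T.chkV x) 18260 415 = true := by decide +kernel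
theorem cV_18675 : allRange (fun x => forceN T.chkV x) 18675 415 = true := by decide +kernel

end Cfsg.Agent.Lib.Helper56.Fi23U8
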