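import Mathlib
import Cfsg.Agent.Lib.Helper56.TC
import Cfsg.Agent.Lib.Helper56.Fi23U8.D
set_option autoImplicit false
set_option maxRecDepth 1000000

namespace Cfsg.Agent.Lib.Helper56.Fi23U8

open Cfsg.Agent.Lib.Helper56.TC Cfsg.Agent.Lib.Helper56.TC.Tabs

theorem cV_19090 : allRange (fun x => forceN T.chkV x) 19090 415 = true := by decide +kernel
theorem cV_19505 : allRange (fun x => forceN T.chkV x) 19505 415 = true := by decide +kernel
theorem cV_19920 : allRange (fun x => forceN T.chkV x) 19920 415 = true := by decide +kernel
theorem cV_20335 : allRange (fun x => forceN T.chkV x) 20335 415 = true := by decide +kernel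
theorem cV_20750 : allRange (fun x => forceN T.chkV x) 20750 415 = true := by decide +kernel
theorem cV_21165 : allRange (fun x => forceN T.chkV x) 21165 415 = true := by decide +kernel
theorem cV_21580 : allRange (fun x => forceN T.chkV x) 21580 415 = true := by decide +kernel
theorem cV_21995 : allRange (fun x => forceN T.chkV x) 21995 415 = true := by decide +kernel
theorem cV_22410 : allRange (fun x => forceN T.chkV x) 22410 415 = true := by decide +kernel
theorem cV_22825 : allRange (fun x => forceN T.chkV x) 22825 415 = true := by decide +kernel
theorem cV_23240 : allRange (fun x => forceN T.chkV x) 23240 415 = true := by decide +kernel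
theorem cV_23655 : allRange (fun x => forceN T.chkV x) 23655 415 = true := by decide +kernel

end Cfsg.Agent.Lib.Helper56.Fi23U8
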